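import Cfsg.Agent.CharBasics.Ortho
import Cfsg.Agent.CharBasics.Induced
import Cfsg.Agent.BrauerInd.Induction
import Cfsg.Agent.Clifford.Basic

/-!
A permutation character induced from the kernel of a linear quotient of a subgroup `L`, of the smallest
possible norm, splits into the trivial character and pairwise different irreducible characters.
-/

set_option autoImplicit false

namespace CfsgLib.PermSplit

open CfsgLib.CharBasics

variable {G : Type*} [Group G] [Fintype G] {C : Type*} [CommGroup C] [Fintype C]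

theorem sum_duals (c : C) [DecidableEq C] [Fintype (C →* ℂˣ)] :
    ∑ θ : C →* ℂˣ, (θ c : ℂ) = if c = 1 then (Nat.card C : ℂ) else 0 := by
  split_ifs with hc
  · subst hc
    simp only [map_one, Units.val_one, Finset.sum_const, nsmul_eq_mul, mul_one, Finset.card_univ,
      ← Nat.card_eq_fintype_card]
    rw [CommGroup.card_monoidHom_of_hasEnoughRootsOfUnity]
  · obtain ⟨θ₀, hθ₀⟩ := CommGroup.exists_apply_ne_one_of_hasEnoughRootsOfUnity C ℂ hc
    have h1 : (θ₀ c : ℂ) * ∑ θ : C →* ℂˣ, (θ c : ℂ) = ∑ θ : C →* ℂˣ, (θ c : ℂ) := by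
      rw [Finset.mul_sum]
      exact Fintype.sum_equiv (Equiv.mulLeft θ₀) _ _ fun θ => by simp
    have hne : (θ₀ c : ℂ) - 1 ≠ 0 := sub_ne_zero.2 fun h => hθ₀ (Units.ext h)
    exact (mul_eq_zero.1 (by linear_combination h1 :
      ((θ₀ c : ℂ) - 1) * ∑ θ : C →* ℂˣ, (θ c : ℂ) = 0)).resolve_left hne

theorem classInner_add_right (a b c : G → ℂ) :
    Cfsg.classInner a (b + c) = Cfsg.classInner a b + Cfsg.classInner a c := by
  simp [classInner_eq, mul_add, Finset.sum_add_distrib]

theorem exists_irr_split (L : Subgroup G) (hL : L ≠ ⊤) (lam : L →* C) (hlam : Function.Surjective lam)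
    (H : Subgroup G) (hH : H = lam.ker.map L.subtype)
    (hnorm : Cfsg.classInner (Cfsg.indFun H fun _ => (1 : ℂ)) (Cfsg.indFun H fun _ => (1 : ℂ)) =
      (Nat.card C : ℂ) + 1) :
    ∃ χ : Fin (Nat.card C) → (G → ℂ), (∀ i, Cfsg.IsIrrCharacter G (χ i)) ∧ Function.Injective χ ∧
      ∀ g, Cfsg.indFun H (fun _ => (1 : ℂ)) g = 1 + ∑ i, χ i g := by
  classical
  haveI : Finite (C →* ℂˣ) :=
    Nat.finite_of_card_ne_zero (by
      rw [CommGroup.card_monoidHom_of_hasEnoughRootsOfUnity]
      exact Nat.card_pos.ne')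
  haveI := Fintype.ofFinite (C →* ℂˣ)
  haveI := Fintype.ofFinite L
  have hk : Nat.card L = Nat.card C * Nat.card H := by
    rw [hH, Subgroup.card_map_of_injective L.subtype_injective,
      Subgroup.card_eq_card_quotient_mul_card_subgroup lam.ker,
      Nat.card_congr (QuotientGroup.quotientKerEquivOfSurjective lam hlam).toEquiv]
  let ψ : (C →* ℂˣ) → G → ℂ := fun θ => Cfsg.indFun L (fun l => ((θ.comp lam) l : ℂ))
  have hψc : ∀ θ, Cfsg.IsCharacter G (ψ θ) := fun θ =>
    isCharacter_indFun L (CfsgLib.BrauerInd.isCharacter_linear _)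
  have hsum : Cfsg.indFun H (fun _ => (1 : ℂ)) = ∑ θ, ψ θ := by
    funext g
    have hext : ∀ y : G, ∑ θ : C →* ℂˣ, Cfsg.extendByZero L (fun l => ((θ.comp lam) l : ℂ)) y =
        (Nat.card C : ℂ) * Cfsg.extendByZero H (fun _ => (1 : ℂ)) y := by
      intro y
      by_cases hy : y ∈ L
      · simp only [CfsgLib.IndFun.extendByZero_mem _ hy, MonoidHom.comp_apply]
        rw [sum_duals]
        by_cases hyH : y ∈ H
        · rw [CfsgLib.IndFun.extendByZero_mem _ hyH, if_pos, mul_one]
          rw [hH] at hyH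
          obtain ⟨z, hz, hzy⟩ := hyH
          rw [show (⟨y, hy⟩ : L) = z from Subtype.ext hzy.symm]
          exact hz
        · rw [CfsgLib.IndFun.extendByZero_not_mem _ hyH, if_neg, mul_zero]
          intro h
          exact hyH (hH ▸ ⟨⟨y, hy⟩, h, rfl⟩)
      · have hyH : y ∉ H := fun h => hy (by
          rw [hH] at h
          obtain ⟨z, -, rfl⟩ := h
          exact z.2)
        simp [CfsgLib.IndFun.extendByZero_not_mem _ hy, CfsgLib.IndFun.extendByZero_not_mem _ hyH]
    rw [Finset.sum_apply]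
    simp only [ψ, Cfsg.indFun]
    rw [← Finset.mul_sum, Finset.sum_comm, Finset.sum_congr rfl (fun x _ => hext _), ← Finset.mul_sum, hk]
    have h1 : (Nat.card C : ℂ) ≠ 0 := Nat.cast_ne_zero.2 Nat.card_pos.ne'
    push_cast
    field_simp
  choose m hm using fun θ θ' => classInner_characters_nat (hψc θ) (hψc θ')
  have htot : ∑ θ, ∑ θ', m θ θ' = Nat.card C + 1 := by
    rw [hsum, classInner_sum_left] at hnorm
    simp only [classInner_sum_right, hm] at hnorm
    exact_mod_cast hnorm
  have hdeg : ∀ θ, ψ θ 1 = (L.index : ℂ) := by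
    intro θ
    simp only [ψ, Cfsg.indFun, mul_one, inv_mul_cancel, CfsgLib.IndFun.extendByZero_mem _ (one_mem L)]
    simp only [Finset.sum_const, Finset.card_univ, ← Nat.card_eq_fintype_card]
    rw [show (⟨1, one_mem L⟩ : L) = 1 from rfl]
    simp only [map_one, Units.val_one, nsmul_eq_mul, mul_one]
    rw [← Subgroup.card_mul_index L, Nat.cast_mul, inv_mul_cancel_left₀ (Nat.cast_ne_zero.2 Nat.card_pos.ne')]
  have hdiag : ∀ θ, 1 ≤ m θ θ := by
    intro θ
    obtain ⟨φ, k, hk0, hφ⟩ := exists_constituent (hψc θ)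
      (by rw [hdeg]; exact Nat.cast_ne_zero.2 Subgroup.index_ne_zero_of_finite)
    obtain ⟨R, hR, hRe⟩ := CfsgLib.Clifford.exists_eq_add_of_constituent (hψc θ) φ.2
      (by rw [hφ]; exact Nat.cast_ne_zero.2 hk0.ne')
    obtain ⟨a, ha⟩ := classInner_characters_nat (isCharacter_of_irr φ.2) hR
    obtain ⟨a', ha'⟩ := classInner_characters_nat hR (isCharacter_of_irr φ.2)
    obtain ⟨b, hb⟩ := classInner_characters_nat hR hR
    have h := hm θ θ
    rw [hRe, classInner_add_left, classInner_add_right, classInner_add_right,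
      classInner_self φ.2, ha, ha', hb] at h
    have h' : 1 + a + (a' + b) = m θ θ := by exact_mod_cast h
    omega
  have h1one : Cfsg.classInner (ψ 1) (fun _ => (1 : ℂ)) = 1 := by
    rw [classInner_indFun L _ (isClassFunction (isCharacter_of_irr isIrrCharacter_one))]
    simp [classInner_eq]
  obtain ⟨R, hR, hRe⟩ := CfsgLib.Clifford.exists_eq_add_of_constituent (hψc 1) isIrrCharacter_one
    (by rw [h1one]; exact one_ne_zero)
  have hRone : Cfsg.classInner R (fun _ => (1 : ℂ)) = 0 := by
    have h := h1one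
    rw [hRe, classInner_add_left, classInner_self isIrrCharacter_one] at h
    linear_combination h
  have hR1 : R 1 ≠ 0 := by
    intro h0
    have hR0 := CfsgLib.Clifford.eq_zero_of_apply_one hR h0
    have h := hdeg 1
    rw [hRe, hR0, add_zero] at h
    exact hL (Subgroup.index_eq_one.1 (by exact_mod_cast h.symm))
  obtain ⟨b, hb⟩ := classInner_characters_nat hR hR
  have hb1 : 1 ≤ b := by
    obtain ⟨φ, k, hk0, hφ⟩ := exists_constituent hR hR1
    obtain ⟨R', hR', hRe'⟩ := CfsgLib.Clifford.exists_eq_add_of_constituent hR φ.2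
      (by rw [hφ]; exact Nat.cast_ne_zero.2 hk0.ne')
    by_contra hb0
    have hb' : b = 0 := by omega
    have h1 : Cfsg.classInner (φ.1 + R') φ.1 ≠ 0 := CfsgLib.Clifford.classInner_add_ne_zero_left
      (isCharacter_of_irr φ.2) hR' (isCharacter_of_irr φ.2) (by rw [classInner_self φ.2]; exact one_ne_zero)
    obtain ⟨c, hc⟩ := classInner_characters_nat hR hR'
    rw [← hRe', hφ] at h1
    have h2 := hb
    nth_rewrite 2 [hRe'] at h2
    rw [classInner_add_right, hφ, hc, hb'] at h2
    have h3 : k + c = 0 := by exact_mod_cast h2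
    omega
  have hm11 : m 1 1 = 1 + b := by
    have h := hm 1 1
    rw [hRe, classInner_add_left, classInner_add_right, classInner_add_right,
      classInner_self isIrrCharacter_one, hRone, hb, classInner_comm R (fun _ => (1 : ℂ)), hRone,
      map_zero] at h
    have h' : (1 : ℕ) + b = m 1 1 := by
      have : ((1 + b : ℕ) : ℂ) = ((m 1 1 : ℕ) : ℂ) := by push_cast; linear_combination h
      exact_mod_cast this
    omega
  have key : (∀ θ θ', θ ≠ θ' → m θ θ' = 0) ∧ (∀ θ, θ ≠ 1 → m θ θ = 1) ∧ b = 1 := by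
    let f : (C →* ℂˣ) × (C →* ℂˣ) → ℕ := fun p => if p.1 = p.2 then (if p.1 = 1 then 2 else 1) else 0
    have hle : ∀ p : (C →* ℂˣ) × (C →* ℂˣ), f p ≤ m p.1 p.2 := by
      rintro ⟨θ, θ'⟩
      simp only [f]
      split_ifs with h h'
      · subst h; subst h'; omega
      · subst h; exact hdiag _
      · exact Nat.zero_le _
    have hfs : ∑ p, f p = Nat.card C + 1 := by
      rw [Fintype.sum_prod_type]
      simp only [f, Finset.sum_ite_eq, Finset.mem_univ, if_true]
      rw [← Finset.add_sum_erase _ _ (Finset.mem_univ (1 : C →* ℂˣ)), if_pos rfl,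
        Finset.sum_congr rfl (g := fun _ => 1) (fun θ hθ => if_neg (Finset.ne_of_mem_erase hθ)),
        Finset.sum_const, smul_eq_mul, mul_one, Finset.card_erase_of_mem (Finset.mem_univ _),
        Finset.card_univ, ← Nat.card_eq_fintype_card, CommGroup.card_monoidHom_of_hasEnoughRootsOfUnity]
      have : 0 < Nat.card C := Nat.card_pos
      omega
    have hms : ∑ p : (C →* ℂˣ) × (C →* ℂˣ), m p.1 p.2 = Nat.card C + 1 := by
      rw [Fintype.sum_prod_type]; exact htot
    have heq : ∀ p, f p = m p.1 p.2 := fun p =>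
      (Finset.sum_eq_sum_iff_of_le (fun p _ => hle p)).1 (hfs.trans hms.symm) p (Finset.mem_univ p)
    refine ⟨fun θ θ' h => ?_, fun θ h => ?_, ?_⟩
    · exact (heq (θ, θ')).symm.trans (if_neg h)
    · rw [← heq (θ, θ)]; simp [f, h]
    · have := heq (1, 1)
      simp [f] at this
      omega
  obtain ⟨hoff, hone, hb1'⟩ := key
  let X : (C →* ℂˣ) → G → ℂ := fun θ => if θ = 1 then R else ψ θ
  have hXirr : ∀ θ, Cfsg.IsIrrCharacter G (X θ) := by
    intro θ
    simp only [X]
    split_ifs with h
    · exact isIrr_of_norm_one hR (by rw [hb, hb1', Nat.cast_one])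
    · exact isIrr_of_norm_one (hψc θ) (by rw [hm, hone θ h, Nat.cast_one])
  have hRψ : ∀ θ, θ ≠ 1 → R ≠ ψ θ := by
    intro θ hθ he
    obtain ⟨a, ha⟩ := classInner_characters_nat (isCharacter_of_irr isIrrCharacter_one) (hψc θ)
    obtain ⟨c, hc⟩ := classInner_characters_nat hR (hψc θ)
    have h := hm 1 θ
    rw [hoff 1 θ (Ne.symm hθ), hRe, classInner_add_left, ha, hc] at h
    have h' : a + c = 0 := by exact_mod_cast h
    rw [← he, hb, hb1'] at hc
    have : c = 1 := by exact_mod_cast hc.symm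
    omega
  have hXinj : Function.Injective X := by
    intro θ θ' h
    by_contra hne
    simp only [X] at h
    split_ifs at h with h1 h2 h2
    · exact hne (h1.trans h2.symm)
    · exact hRψ θ' h2 h
    · exact hRψ θ h1 h.symm
    · have e := hm θ θ'
      rw [hoff θ θ' hne, ← h, hm, hone θ h1] at e
      exact one_ne_zero (α := ℕ) (by exact_mod_cast e)
  have hcard : Fintype.card (C →* ℂˣ) = Nat.card C := by
    rw [← Nat.card_eq_fintype_card, CommGroup.card_monoidHom_of_hasEnoughRootsOfUnity]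
  let e := (Fintype.equivFinOfCardEq hcard).symm
  refine ⟨fun i => X (e i), fun i => hXirr _, hXinj.comp e.injective, fun g => ?_⟩
  rw [hsum, Finset.sum_apply, ← Finset.add_sum_erase _ _ (Finset.mem_univ (1 : C →* ℂˣ)),
    Equiv.sum_comp e (fun θ => X θ g), ← Finset.add_sum_erase _ (fun θ => X θ g) (Finset.mem_univ (1 : C →* ℂˣ)),
    hRe]
  have : ∑ θ ∈ Finset.univ.erase (1 : C →* ℂˣ), ψ θ g = ∑ θ ∈ Finset.univ.erase (1 : C →* ℂˣ), X θ g :=
    Finset.sum_congr rfl fun θ hθ => by simp only [X, if_neg (Finset.ne_of_mem_erase hθ)]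
  simp only [Pi.add_apply, X, if_pos]
  rw [this]
  simp only [X]
  ring

end CfsgLib.PermSplit
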